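import Cfsg.Agent.SL2Pres.Rels

/-!
`SL₂` and `PSL₂` over a finite field have presentations with three generators and few relations.
-/

set_option autoImplicit false
set_option maxHeartbeats 400000

namespace Cfsg.Agent.SL2Pres

open Matrix Cfsg.Agent.Chev

variable {p : ℕ} [hp : Fact p.Prime] {F : Type*} [Field F] [Fintype F] [Algebra (ZMod p) F]

theorem exists_zeta : ∃ ζ : F, ζ ≠ 0 ∧ orderOf ζ = Fintype.card F - 1 ∧
    ∀ a : F, a ≠ 0 → ∃ m : ℕ, a = ζ ^ m := by
  classical
  obtain ⟨g, hg⟩ := IsCyclic.exists_generator (α := Fˣ)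
  refine ⟨(g : F), g.ne_zero, ?_, fun a ha => ?_⟩
  · rw [orderOf_units, orderOf_eq_card_of_forall_mem_zpowers hg, Nat.card_eq_fintype_card, Fintype.card_units]
  · obtain ⟨m, hm⟩ := mem_powers_iff_mem_zpowers.2 (hg (Units.mk0 a ha))
    exact ⟨m, by simpa using (congrArg Units.val hm).symm⟩

/-- A power basis on an element lying in no proper subfield. -/
theorem exists_powerBasis (a : F)
    (h : ∀ Q m : ℕ, 2 ≤ Q → 2 ≤ m → Fintype.card F = Q ^ m → a ^ Q = a → False) :
    ∃ pb : PowerBasis (ZMod p) F, pb.gen = a := by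
  classical
  set E := IntermediateField.adjoin (ZMod p) ({a} : Set F)
  have hE : E = ⊤ := by
    by_contra hne
    have hm := Module.card_eq_pow_finrank (K := E) (V := F)
    rcases Nat.lt_or_ge (Module.finrank E F) 2 with h1 | h1
    · have h2 : Module.finrank E F = 1 := by
        have := Module.finrank_pos (R := E) (M := F)
        omega
      exact hne (IntermediateField.finrank_eq_one_iff_eq_top.1 h2)
    · refine h _ _ Fintype.one_lt_card h1 hm ?_
      exact congrArg Subtype.val (FiniteField.pow_card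
        (⟨a, IntermediateField.subset_adjoin _ _ rfl⟩ : E))
  refine ⟨(IntermediateField.adjoin.powerBasis (Algebra.IsIntegral.isIntegral a)).map
    ((IntermediateField.equivOfEq hE).trans IntermediateField.topEquiv), ?_⟩
  simp

theorem pow_mod_charTwo {G : Type*} [Group G] {u v : G} (hu : u ^ 2 = 1) (hv : v ^ 2 = 1)
    (huv : (u * v) ^ 2 = 1) : Commute u v := by
  have h1 : u⁻¹ = u := inv_eq_of_mul_eq_one_right (by rw [← sq, hu])
  have h2 : v⁻¹ = v := inv_eq_of_mul_eq_one_right (by rw [← sq, hv])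
  have h3 : (u * v)⁻¹ = u * v := inv_eq_of_mul_eq_one_right (by rw [← sq, huv])
  show u * v = v * u
  rw [_root_.mul_inv_rev, h1, h2] at h3
  exact h3.symm

variable (pb : PowerBasis (ZMod p) F) {ζ : F} {i : ℕ} {G : Type*} [Group G] {u h t : G}

theorem X_dim_one (hd : pb.dim ≤ 1) (c : F) : X pb i u h c ∈ Subgroup.closure ({u} : Set G) := by
  rw [X, xw]
  apply Subgroup.list_prod_mem
  intro x hx
  obtain ⟨j, rfl⟩ := List.mem_ofFn.1 hx
  have hj : (j : ℕ) = 0 := by omega
  rw [hj, pow_zero, one_mul, inv_one, mul_one]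
  exact pow_mem (Subgroup.subset_closure (Set.mem_singleton u)) _

theorem X_dim_two (hd : pb.dim ≤ 2) (c : F) :
    X pb i u h c ∈ Subgroup.closure ({u, h ^ i * u * (h ^ i)⁻¹} : Set G) := by
  rw [X, xw]
  apply Subgroup.list_prod_mem
  intro x hx
  obtain ⟨j, rfl⟩ := List.mem_ofFn.1 hx
  refine pow_mem ?_ _
  rcases (show (j : ℕ) = 0 ∨ (j : ℕ) = 1 by omega) with hj | hj <;> rw [hj]
  · rw [pow_zero, one_mul, inv_one, mul_one]
    exact Subgroup.subset_closure (Set.mem_insert _ _)
  · rw [pow_one]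
    exact Subgroup.subset_closure (Set.mem_insert_of_mem _ (Set.mem_singleton _))

/-- Small degree: the generator is `ζ²` itself. -/
theorem holds_small (hd : pb.dim ≤ 2) (hg : pb.gen = ζ ^ 2) (hu : u ^ p = 1)
    (hc : Commute u (h ^ 1 * u * (h ^ 1)⁻¹)) (hmin : minL pb 1 u h = X pb 1 u h (pb.gen ^ pb.dim))
    (ht : t * h * t⁻¹ = h⁻¹) (hA : W pb 1 u h t 1 = t) (hB : W pb 1 u h t ζ = h * t) :
    Holds pb ζ 1 u h t := by
  have hcomm : ∀ n : ℕ, Commute u ((h ^ 1) ^ n * u * ((h ^ 1) ^ n)⁻¹) := by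
    refine commute_small hc ?_
    rcases (show pb.dim = 1 ∨ pb.dim = 2 by have := pb.dim_pos; omega) with hd1 | hd2
    · have e : h ^ 1 * u * (h ^ 1)⁻¹ ∈ Subgroup.closure ({u} : Set G) := by
        have := hmin ▸ X_dim_one pb (i := 1) (u := u) (h := h) (by omega) (pb.gen ^ pb.dim)
        simpa [minL, hd1] using this
      obtain ⟨n, hn⟩ := Subgroup.mem_closure_singleton.1 e
      rw [← hn, ← conj_zpow, ← hn]
      exact zpow_mem (zpow_mem (Subgroup.subset_closure (Set.mem_insert _ _)) n) n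
    · have := hmin ▸ X_dim_two pb (i := 1) (u := u) (h := h) hd (pb.gen ^ pb.dim)
      simpa [minL, hd2] using this
  refine ⟨hu, hcomm, ?_, hmin, ht, hA, hB⟩
  have e := conj_xw_a pb hu hcomm hmin 1
  rw [xw_one pb hu hcomm, mul_one, pow_one] at e
  rw [← hg, X, pow_one]
  exact e

theorem ht_charTwo [CharP F 2] (hp2 : p = 2) (hu : u ^ 2 = 1)
    (hcomm : ∀ n : ℕ, Commute u ((h ^ i) ^ n * u * ((h ^ i) ^ n)⁻¹))
    (hA : W pb i u h t 1 = t) (hB : W pb i u h t ζ = h * t) : t * h * t⁻¹ = h⁻¹ := by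
  have hu' : u ^ p = 1 := by rw [hp2, hu]
  obtain ⟨-, -, hexp⟩ := xw_props pb hu' hcomm
  have hx2 : ∀ c, X pb i u h c ^ 2 = 1 := fun c => hp2 ▸ hexp c
  have hinv : ∀ c : F, W pb i u h t c ^ 2 = 1 := fun c => by
    have h1 : (X pb i u h c)⁻¹ = X pb i u h c := inv_eq_of_mul_eq_one_right (by rw [← sq, hx2])
    have e : W pb i u h t c =
        (X pb i u h c * t) * X pb i u h (-(-c⁻¹)) * (X pb i u h c * t)⁻¹ := by
      rw [W, RankOne.w, yOf, _root_.mul_inv_rev, h1]; group
    rw [e, conj_pow, hx2]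
    group
  have ht2 := hinv 1
  rw [hA] at ht2
  have hht := hinv ζ
  rw [hB] at hht
  have e1 : t⁻¹ = t := inv_eq_of_mul_eq_one_right (by rw [← sq, ht2])
  refine eq_inv_of_mul_eq_one_left ?_
  calc t * h * t⁻¹ * h = h⁻¹ * ((h * t) ^ 2) * h := by rw [e1, sq]; group
    _ = 1 := by rw [hht]; group

/-- The presentation statement for given relations. -/
theorem finish {i : ℕ} (hζ0 : ζ ≠ 0) (hi : pb.gen = (ζ ^ 2) ^ i)
    (hgen : ∀ a : F, a ≠ 0 → ∃ m : ℕ, a = ζ ^ m) (S : Finset (FreeGroup (Fin 3)))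
    (hsl : ∀ r ∈ S, FreeGroup.lift ![RankOne.upper 1, diag ζ hζ0, RankOne.weyl] r = 1)
    (hH : ∀ (rels : Set (FreeGroup (Fin 3))), ↑S ⊆ rels →
      Holds pb ζ i (PresentedGroup.of 0 : PresentedGroup rels) (PresentedGroup.of 1) (PresentedGroup.of 2)) :
    Nonempty (PresentedGroup (↑S : Set (FreeGroup (Fin 3))) ≃* SpecialLinearGroup (Fin 2) F) ∧
      ((∀ r : F, r ^ 2 = 1 → r = 1) →
        Nonempty (PresentedGroup (↑S : Set (FreeGroup (Fin 3))) ≃* ProjectiveSpecialLinearGroup (Fin 2) F)) ∧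
      ∀ e : ℕ, ζ ^ e = -1 →
        Nonempty (PresentedGroup (↑(insert (FreeGroup.of 1 ^ e) S) : Set (FreeGroup (Fin 3))) ≃*
          ProjectiveSpecialLinearGroup (Fin 2) F) := by
  classical
  let q : SpecialLinearGroup (Fin 2) F →* ProjectiveSpecialLinearGroup (Fin 2) F := QuotientGroup.mk' _
  have hq : Function.Surjective q := QuotientGroup.mk'_surjective _
  have hmem : ∀ g, g ∈ q.ker → ∃ r : F, r ^ 2 = 1 ∧ g.1 = Matrix.scalar (Fin 2) r := fun g hg => by
    rw [QuotientGroup.ker_mk', Matrix.SpecialLinearGroup.mem_center_iff] at hg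
    obtain ⟨r, hr, e⟩ := hg
    exact ⟨r, by simpa using hr, e.symm⟩
  have hmap : ∀ r ∈ S, FreeGroup.lift ![q (RankOne.upper 1), q (diag ζ hζ0), q RankOne.weyl] r = 1 := by
    intro r hr
    have : FreeGroup.lift ![q (RankOne.upper 1), q (diag ζ hζ0), q RankOne.weyl] =
        q.comp (FreeGroup.lift ![RankOne.upper 1, diag ζ hζ0, RankOne.weyl]) :=
      FreeGroup.ext_hom _ _ fun j => by fin_cases j <;> simp
    rw [this, MonoidHom.comp_apply, hsl r hr, map_one]
  have hone : ∀ g : SpecialLinearGroup (Fin 2) F, g.1 = Matrix.scalar (Fin 2) (1 : F) → g = 1 :=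
    fun g hg => Subtype.ext (by rw [hg, map_one]; rfl)
  refine ⟨?_, fun h2 => ?_, fun e he => ?_⟩
  · exact presented_equiv pb hζ0 hi hgen _ (MonoidHom.id _) Function.surjective_id (fun r hr => hsl r hr)
      (hH _ subset_rfl) fun ψ _ g hg => by
        rw [MonoidHom.mem_ker] at hg ⊢
        rw [show g = 1 from hg, map_one]
  · refine presented_equiv pb hζ0 hi hgen _ q hq (fun r hr => hmap r hr) (hH _ subset_rfl) fun ψ _ g hg => ?_
    obtain ⟨r, hr, hgr⟩ := hmem g hg
    rw [h2 r hr] at hgr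
    rw [MonoidHom.mem_ker, hone g hgr, map_one]
  · have hde : (diag ζ hζ0 ^ e).1 = Matrix.scalar (Fin 2) (-1 : F) := by
      have : ∀ n : ℕ, (diag ζ hζ0 ^ n).1 = !![ζ ^ n, 0; 0, (ζ ^ n)⁻¹] := fun n => by
        induction n with
        | zero => ext r s; fin_cases r <;> fin_cases s <;> simp
        | succ n ih =>
          rw [pow_succ, RankOne.sl_mul_val, ih]
          ext r s
          fin_cases r <;> fin_cases s <;> simp [diag, Matrix.mul_apply, Fin.sum_univ_two, pow_succ, mul_comm]
      rw [this, he]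
      ext r s
      fin_cases r <;> fin_cases s <;> simp
    have hmem' : q (diag ζ hζ0) ^ e = 1 := by
      rw [← map_pow, ← MonoidHom.mem_ker, QuotientGroup.ker_mk', Matrix.SpecialLinearGroup.mem_center_iff]
      exact ⟨-1, by simp, hde.symm⟩
    refine presented_equiv pb hζ0 hi hgen _ q hq (fun r hr => ?_)
      (hH _ (by rw [Finset.coe_insert]; exact Set.subset_insert _ _)) fun ψ hψ g hg => ?_
    · rcases Finset.mem_insert.1 hr with rfl | hr
      · rw [map_pow, FreeGroup.lift_apply_of]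
        exact hmem'
      · exact hmap r hr
    · have h1 : ψ (diag ζ hζ0) ^ e = 1 := by
        rw [hψ]
        refine (map_pow (PresentedGroup.mk _) (FreeGroup.of 1) e).symm.trans ?_
        exact PresentedGroup.one_of_mem (Finset.mem_insert_self _ _)
      obtain ⟨r, hr, hgr⟩ := hmem g hg
      rcases sq_eq_one_iff.1 hr with rfl | rfl
      · rw [MonoidHom.mem_ker, hone g hgr, map_one]
      · have : g = diag ζ hζ0 ^ e := Subtype.ext (by rw [hgr, hde])
        rw [MonoidHom.mem_ker, this, map_pow, h1]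

theorem mk_eq_one {rels : Set (FreeGroup (Fin 3))} {r : FreeGroup (Fin 3)} (hr : r ∈ rels) :
    PresentedGroup.mk rels r = 1 := PresentedGroup.one_of_mem hr

/-- The statement of the theorem. -/
theorem presentations (p : ℕ) [hp : Fact p.Prime] (F : Type*) [Field F] [Fintype F] [Algebra (ZMod p) F]
    (hcard : 2 ≤ Fintype.card F) :
    (∃ rels : Finset (FreeGroup (Fin 3)), rels.card ≤ 9 ∧
      Nonempty (PresentedGroup (↑rels : Set (FreeGroup (Fin 3))) ≃* SpecialLinearGroup (Fin 2) F)) ∧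
    (∃ rels : Finset (FreeGroup (Fin 3)), rels.card ≤ 9 ∧
      Nonempty (PresentedGroup (↑rels : Set (FreeGroup (Fin 3))) ≃* ProjectiveSpecialLinearGroup (Fin 2) F)) ∧
    (CharP F 2 → ∃ rels : Finset (FreeGroup (Fin 3)), rels.card ≤ 5 ∧
      Nonempty (PresentedGroup (↑rels : Set (FreeGroup (Fin 3))) ≃* ProjectiveSpecialLinearGroup (Fin 2) F)) := by
  classical
  haveI hcharp : CharP F p := charP_of_injective_algebraMap (algebraMap (ZMod p) F).injective p
  obtain ⟨ζ, hζ0, hord, hgen⟩ := exists_zeta (F := F)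
  obtain ⟨f, -, hf⟩ := FiniteField.card F p
  set N := Fintype.card F with hN
  rcases eq_or_ne p 2 with hp2 | hp2
  · -- characteristic two
    haveI : CharP F 2 := hp2 ▸ hcharp
    have hsq : ∀ r : F, r ^ 2 = 1 → r = 1 := fun r hr => by
      have : (r - 1) ^ 2 = 0 := by rw [sub_sq, hr]; ring_nf; simp [CharTwo.two_eq_zero]
      exact sub_eq_zero.1 (pow_eq_zero_iff two_ne_zero |>.1 this)
    have hnosub : ∀ Q m : ℕ, 2 ≤ Q → 2 ≤ m → N = Q ^ m → (ζ ^ 2) ^ Q = ζ ^ 2 → False := by
      intro Q m hQ hm hQm hQe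
      have h1 : ζ ^ Q = ζ := CharTwo.sq_injective (by
        show (ζ ^ Q) ^ 2 = ζ ^ 2
        rw [← pow_mul, mul_comm, pow_mul, hQe])
      have h2 : ζ ^ (Q - 1) = 1 := by
        apply mul_right_cancel₀ hζ0
        rw [one_mul, ← pow_succ, Nat.sub_add_cancel (by omega), h1]
      have h3 := Nat.le_of_dvd (by omega) (orderOf_dvd_of_pow_eq_one h2)
      have h4 : Q * Q ≤ N := by
        rw [hQm, ← sq]; exact Nat.pow_le_pow_right (by omega) hm
      have : 2 * Q ≤ Q * Q := Nat.mul_le_mul_right Q hQ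
      omega
    obtain ⟨pb, hpb⟩ := exists_powerBasis (p := p) (ζ ^ 2) hnosub
    have hi : pb.gen = (ζ ^ 2) ^ 1 := by rw [pow_one, hpb]
    have hsl0 := holds_sl pb hζ0 hi
    by_cases hN2 : N = 2
    · -- the field with two elements
      have hd : pb.dim ≤ 1 := by
        have hc := Module.card_eq_pow_finrank (K := ZMod p) (V := F)
        rw [pb.finrank, ← hN, hN2, ZMod.card] at hc
        by_contra hcon
        have h1 : p ^ 2 ≤ p ^ pb.dim := Nat.pow_le_pow_right hp.out.pos (by omega)
        have h2 : 2 ^ 2 ≤ p ^ 2 := Nat.pow_le_pow_left hp.out.two_le 2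
        omega
      obtain ⟨hS, hP, -⟩ := finish pb hζ0 hi hgen {rUp p, rMin pb 1, rA pb 1, rB pb ζ 1}
        (by
          simp only [Finset.mem_insert, Finset.mem_singleton]
          rintro r (rfl | rfl | rfl | rfl)
          · rw [rUp_iff]; simpa using hsl0.up
          · rw [rMin_iff]; simpa using hsl0.hmin
          · rw [rA_iff]; simpa using hsl0.hA
          · rw [rB_iff]; simpa using hsl0.hB)
        (by
          intro rels hsub
          have h : ∀ r ∈ ({rUp p, rMin pb 1, rA pb 1, rB pb ζ 1} : Finset (FreeGroup (Fin 3))),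
              PresentedGroup.mk rels r = 1 := fun r hr => mk_eq_one (hsub hr)
          have hu := (rUp_iff (p := p) _).1 (h (rUp p) (by simp))
          have hmin := (rMin_iff pb (i := 1) _).1 (h (rMin pb 1) (by simp))
          have hA := (rA_iff pb (i := 1) _).1 (h (rA pb 1) (by simp))
          have hB := (rB_iff pb (ζ := ζ) (i := 1) _).1 (h (rB pb ζ 1) (by simp))
          set u := PresentedGroup.mk rels (FreeGroup.of 0)
          set a := PresentedGroup.mk rels (FreeGroup.of 1)
          have hd1 : pb.dim = 1 := by have := pb.dim_pos; omega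
          have e : a ^ 1 * u * (a ^ 1)⁻¹ ∈ Subgroup.closure ({u} : Set _) := by
            have := hmin ▸ X_dim_one pb (i := 1) (u := u) (h := a) hd (pb.gen ^ pb.dim)
            simpa [minL, hd1] using this
          obtain ⟨n, hn⟩ := Subgroup.mem_closure_singleton.1 e
          have hc : Commute u (a ^ 1 * u * (a ^ 1)⁻¹) := hn ▸ Commute.self_zpow u n
          have hcomm : ∀ k : ℕ, Commute u ((a ^ 1) ^ k * u * ((a ^ 1) ^ k)⁻¹) := by
            refine commute_small hc ?_
            rw [← hn, ← conj_zpow, ← hn]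
            exact zpow_mem (zpow_mem (Subgroup.subset_closure (Set.mem_insert _ _)) n) n
          exact holds_small pb (by omega) hpb hu hc hmin
            (ht_charTwo pb hp2 (hp2 ▸ hu) hcomm hA hB) hA hB)
      have h4 : ({rUp p, rMin pb 1, rA pb 1, rB pb ζ 1} : Finset (FreeGroup (Fin 3))).card ≤ 4 := Finset.card_le_four
      exact ⟨⟨_, by omega, hS⟩, ⟨_, by omega, hP hsq⟩, fun _ => ⟨_, by omega, hP hsq⟩⟩
    · -- at least four elements
      have hω1 : ζ ^ 2 ≠ 1 := fun h => by
        have h1 : ζ = 1 := CharTwo.sq_injective (show ζ ^ 2 = 1 ^ 2 by rw [one_pow, h])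
        rw [h1, orderOf_one] at hord
        omega
      have hne : 1 + ζ ^ 2 ≠ 0 := fun h => hω1 (CharTwo.add_eq_zero.1 h).symm
      obtain ⟨r, hr⟩ : ∃ r : F, r ^ 2 = 1 + ζ ^ 2 := by
        obtain ⟨r, hr⟩ := (bijective_frobenius F 2).2 (1 + ζ ^ 2)
        exact ⟨r, by rwa [frobenius_def] at hr⟩
      obtain ⟨k, hk⟩ := hgen r (fun h => hne (by rw [← hr, h]; simp))
      have hk' : ζ ^ (2 * k) = 1 + ζ ^ 2 := by rw [← hr, hk, ← pow_mul, mul_comm]
      obtain ⟨hS, hP, -⟩ := finish pb hζ0 hi hgen {rUp p, rPair 1 k, rMin pb 1, rA pb 1, rB pb ζ 1}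
        (by
          simp only [Finset.mem_insert, Finset.mem_singleton]
          rintro r (rfl | rfl | rfl | rfl | rfl)
          · rw [rUp_iff]; simpa using hsl0.up
          · rw [rPair_iff]
            simp only [FreeGroup.lift_apply_of, Matrix.cons_val_zero, Matrix.cons_val_one]
            rw [diag_pow_conj_upper, diag_pow_conj_upper, ← upper_add, mul_one, mul_one, pow_one, ← pow_mul, hk']
          · rw [rMin_iff]; simpa using hsl0.hmin
          · rw [rA_iff]; simpa using hsl0.hA
          · rw [rB_iff]; simpa using hsl0.hB)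
        (by
          intro rels hsub
          have h : ∀ r ∈ ({rUp p, rPair 1 k, rMin pb 1, rA pb 1, rB pb ζ 1} : Finset (FreeGroup (Fin 3))),
              PresentedGroup.mk rels r = 1 := fun r hr => mk_eq_one (hsub hr)
          have hu := (rUp_iff (p := p) _).1 (h (rUp p) (by simp))
          have hpair := (rPair_iff (i := 1) _ k).1 (h (rPair 1 k) (by simp))
          have hmin := (rMin_iff pb (i := 1) _).1 (h (rMin pb 1) (by simp))
          have hA := (rA_iff pb (i := 1) _).1 (h (rA pb 1) (by simp))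
          have hB := (rB_iff pb (ζ := ζ) (i := 1) _).1 (h (rB pb ζ 1) (by simp))
          set u := PresentedGroup.mk rels (FreeGroup.of 0)
          set a := PresentedGroup.mk rels (FreeGroup.of 1)
          rw [hp2] at hu
          have hv2 : (a ^ 1 * u * (a ^ 1)⁻¹) ^ 2 = 1 := by rw [conj_pow, hu, mul_one, mul_inv_cancel]
          have hcomm1 : Commute u (a ^ 1 * u * (a ^ 1)⁻¹) :=
            pow_mod_charTwo hu hv2 (by rw [← hpair, conj_pow, hu, mul_one, mul_inv_cancel])
          have hcomm := commute_all (((Commute.refl a).pow_pow 1 k)) hcomm1 hpair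
          have hu' : u ^ p = 1 := by rw [hp2, hu]
          refine ⟨hu', hcomm, ?_, hmin, ht_charTwo pb hp2 hu hcomm hA hB, hA, hB⟩
          have e := conj_xw_a pb hu' hcomm hmin 1
          rw [xw_one pb hu' hcomm, mul_one, pow_one] at e
          rw [← hpb, X, pow_one]
          exact e)
      have h5 : ({rUp p, rPair 1 k, rMin pb 1, rA pb 1, rB pb ζ 1} : Finset (FreeGroup (Fin 3))).card ≤ 5 := Finset.card_le_five
      exact ⟨⟨_, by omega, hS⟩, ⟨_, by omega, hP hsq⟩, fun _ => ⟨_, h5, hP hsq⟩⟩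
  · -- odd characteristic
    have hnot2 : CharP F 2 → False := fun h2 => hp2 (CharP.eq F hcharp h2)
    have hodd : Odd N := by
      rw [hf]; exact ((hp.out.eq_two_or_odd').resolve_left hp2).pow
    obtain ⟨e, he⟩ := hgen (-1) (by simp)
    suffices h : ∃ (pb : PowerBasis (ZMod p) F) (i : ℕ) (S : Finset (FreeGroup (Fin 3))),
        pb.gen = (ζ ^ 2) ^ i ∧ S.card ≤ 8 ∧
        (∀ r ∈ S, FreeGroup.lift ![RankOne.upper 1, diag ζ hζ0, RankOne.weyl] r = 1) ∧
        ∀ (rels : Set (FreeGroup (Fin 3))), ↑S ⊆ rels →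
          Holds pb ζ i (PresentedGroup.of 0 : PresentedGroup rels) (PresentedGroup.of 1) (PresentedGroup.of 2) by
      obtain ⟨pb, i, S, hi, hcardS, hsl, hH⟩ := h
      obtain ⟨hS, -, hP⟩ := finish pb hζ0 hi hgen S hsl hH
      exact ⟨⟨S, by omega, hS⟩,
        ⟨_, le_trans (Finset.card_insert_le _ _) (by omega), hP e he.symm⟩, fun h2 => (hnot2 h2).elim⟩
    by_cases hsmall : N = 3 ∨ N = 5 ∨ N = 9
    · have hnosub : ∀ Q m : ℕ, 2 ≤ Q → 2 ≤ m → N = Q ^ m → (ζ ^ 2) ^ Q = ζ ^ 2 → False := by
        intro Q m hQ hm hQm hQe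
        have hQQ : Q * Q ≤ N := by rw [hQm, ← sq]; exact Nat.pow_le_pow_right (by omega) hm
        have hQ3 : Q ≤ 3 := by
          have : N ≤ 9 := by omega
          nlinarith
        have h2 : ζ ^ (2 * (Q - 1)) = 1 := by
          apply mul_right_cancel₀ (pow_ne_zero 2 hζ0)
          rw [one_mul, pow_mul, ← pow_succ, Nat.sub_add_cancel (by omega), hQe]
        have h3 := Nat.le_of_dvd (by omega) (orderOf_dvd_of_pow_eq_one h2)
        rw [hord] at h3
        rcases (show Q = 2 ∨ Q = 3 by omega) with rfl | rfl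
        · rw [hQm] at hodd
          exact (Nat.not_odd_iff_even.2 ((even_two).pow_of_ne_zero (by omega))) hodd
        · omega
      obtain ⟨pb, hpb⟩ := exists_powerBasis (p := p) (ζ ^ 2) hnosub
      have hi : pb.gen = (ζ ^ 2) ^ 1 := by rw [pow_one, hpb]
      have hsl0 := holds_sl pb hζ0 hi
      have hd : pb.dim ≤ 2 := by
        have hc := Module.card_eq_pow_finrank (K := ZMod p) (V := F)
        rw [pb.finrank, ← hN, ZMod.card] at hc
        by_contra hcon
        have h3 : 3 ^ 3 ≤ p ^ pb.dim := le_trans (Nat.pow_le_pow_left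
          (by have := hp.out.two_le; omega) 3) (Nat.pow_le_pow_right hp.out.pos (by omega))
        omega
      refine ⟨pb, 1, {rUp p, rComm 1, rMin pb 1, rT, rA pb 1, rB pb ζ 1}, hi,
        le_trans Finset.card_le_six (by norm_num), ?_, fun rels hsub => ?_⟩
      · simp only [Finset.mem_insert, Finset.mem_singleton]
        rintro r (rfl | rfl | rfl | rfl | rfl | rfl)
        · rw [rUp_iff]; simpa using hsl0.up
        · rw [rComm_iff]; simpa using hsl0.comm 1
        · rw [rMin_iff]; simpa using hsl0.hmin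
        · rw [rT_iff]; simpa using hsl0.ht
        · rw [rA_iff]; simpa using hsl0.hA
        · rw [rB_iff]; simpa using hsl0.hB
      · have h : ∀ r ∈ ({rUp p, rComm 1, rMin pb 1, rT, rA pb 1, rB pb ζ 1} : Finset (FreeGroup (Fin 3))),
            PresentedGroup.mk rels r = 1 := fun r hr => mk_eq_one (hsub hr)
        exact holds_small pb hd hpb ((rUp_iff (p := p) _).1 (h (rUp p) (by simp)))
          ((rComm_iff (i := 1) _).1 (h (rComm 1) (by simp)))
          ((rMin_iff pb (i := 1) _).1 (h (rMin pb 1) (by simp)))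
          ((rT_iff _).1 (h rT (by simp)))
          ((rA_iff pb (i := 1) _).1 (h (rA pb 1) (by simp)))
          ((rB_iff pb (ζ := ζ) (i := 1) _).1 (h (rB pb ζ 1) (by simp)))
    · push Not at hsmall
      obtain ⟨hN3, hN5, hN9⟩ := hsmall
      have hNge : 7 ≤ N := by obtain ⟨j, hj⟩ := hodd; omega
      have h2ne : (2 : F) ≠ 0 := by
        intro h
        exact hnot2 (CharP.ringChar_of_prime_eq_zero Nat.prime_two (by exact_mod_cast h) ▸ ringChar.charP F)
      have hp4 : ∀ n : ℕ, 0 < n → n ≤ 4 → ζ ^ n ≠ 1 := fun n hn hn4 h => by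
        have := Nat.le_of_dvd hn (orderOf_dvd_of_pow_eq_one h)
        omega
      set x := (ζ - ζ⁻¹) / 2 with hxdef
      set y := (ζ + ζ⁻¹) / 2 with hydef
      have hx0 : x ≠ 0 := by
        intro h
        rw [hxdef, div_eq_zero_iff] at h
        have h' := sub_eq_zero.1 (h.resolve_right h2ne)
        exact hp4 2 two_pos (by norm_num) (by rw [sq]; nth_rewrite 2 [h']; exact mul_inv_cancel₀ hζ0)
      have hy0 : y ≠ 0 := by
        intro h
        rw [hydef, div_eq_zero_iff] at h
        have h' := eq_neg_of_add_eq_zero_left (h.resolve_right h2ne)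
        have h2 : ζ ^ 2 = -1 := by
          rw [sq]; nth_rewrite 2 [h']; rw [mul_neg, mul_inv_cancel₀ hζ0]
        exact hp4 4 (by norm_num) le_rfl (by rw [show (4 : ℕ) = 2 * 2 from rfl, pow_mul, h2]; ring)
      obtain ⟨i, hxi⟩ := hgen x hx0
      obtain ⟨k, hyk⟩ := hgen y hy0
      have hxy : (ζ ^ 2) ^ k = 1 + (ζ ^ 2) ^ i := by
        rw [← pow_mul, mul_comm, pow_mul, ← hyk, ← pow_mul ζ 2 i, mul_comm 2 i, pow_mul, ← hxi,
          hxdef, hydef]
        field_simp
        ring
      have hnosub : ∀ Q m : ℕ, 2 ≤ Q → 2 ≤ m → N = Q ^ m → ((ζ ^ 2) ^ i) ^ Q = (ζ ^ 2) ^ i → False := by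
        intro Q m hQ hm hQm hQe
        obtain ⟨f', hf'⟩ : ∃ f' : ℕ, Q = p ^ f' := by
          obtain ⟨f', -, h⟩ := (Nat.dvd_prime_pow hp.out).1
            (show Q ∣ p ^ (f : ℕ) from hf ▸ hQm ▸ dvd_pow_self Q (by omega))
          exact ⟨f', h⟩
        let σ : F →+* F := iterateFrobenius F p f'
        have hσ : ∀ a : F, σ a = a ^ Q := fun a => by rw [hf']; exact iterateFrobenius_def p f' a
        have hs : (ζ ^ 2) ^ i = x ^ 2 := by rw [hxi, ← pow_mul, ← pow_mul, mul_comm]
        rw [hs] at hQe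
        set z := ζ ^ 2 with hzdef
        have hz0 : z ≠ 0 := pow_ne_zero 2 hζ0
        have hx4 : x ^ 2 = (z + z⁻¹ - 2) / (2 * 2) := by
          rw [hxdef, hzdef]; field_simp; ring
        rw [← hσ, hx4, map_div₀, map_sub, map_add, map_inv₀, map_mul, map_ofNat, hσ,
          div_left_inj' (mul_ne_zero h2ne h2ne), sub_left_inj] at hQe
        have h1 : (z ^ Q - z) * (z ^ Q * z - 1) = 0 := by
          field_simp at hQe
          linear_combination hQe
        have hb : orderOf ζ ∣ 2 * (Q - 1) ∨ orderOf ζ ∣ 2 * (Q + 1) := by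
          rcases mul_eq_zero.1 h1 with h | h
          · refine Or.inl (orderOf_dvd_of_pow_eq_one ?_)
            rw [pow_mul, ← hzdef]
            apply mul_right_cancel₀ hz0
            rw [one_mul, ← pow_succ, Nat.sub_add_cancel (by omega)]
            exact sub_eq_zero.1 h
          · exact Or.inr (orderOf_dvd_of_pow_eq_one (by rw [pow_mul, ← hzdef, pow_succ]; exact sub_eq_zero.1 h))
        have hb' : N - 1 ≤ 2 * (Q + 1) := by
          rcases hb with h | h <;> have := Nat.le_of_dvd (by omega) h <;> omega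
        have hQQ : Q * Q ≤ N := by rw [hQm, ← sq]; exact Nat.pow_le_pow_right (by omega) hm
        have hQ3 : Q ≤ 3 := by
          have : N ≤ 2 * Q + 3 := by omega
          nlinarith
        rcases (show Q = 2 ∨ Q = 3 by omega) with rfl | rfl
        · rw [hQm] at hodd
          exact (Nat.not_odd_iff_even.2 ((even_two).pow_of_ne_zero (by omega))) hodd
        · rcases Nat.lt_or_ge m 3 with hm3 | hm3
          · obtain rfl : m = 2 := by omega
            exact hN9 (by rw [hQm]; norm_num)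
          · have : 3 ^ 3 ≤ N := hQm ▸ Nat.pow_le_pow_right (by norm_num) hm3
            omega
      obtain ⟨pb, hpb⟩ := exists_powerBasis (p := p) ((ζ ^ 2) ^ i) hnosub
      have hsl0 := holds_sl pb hζ0 hpb
      refine ⟨pb, i, {rUp p, rComm i, rPair i k, rH pb ζ i, rMin pb i, rT, rA pb i, rB pb ζ i}, hpb,
        ?_, ?_, fun rels hsub => ?_⟩
      · exact le_trans (Finset.card_insert_le _ _) (Nat.succ_le_succ (le_trans (Finset.card_insert_le _ _)
          (Nat.succ_le_succ Finset.card_le_six)))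
      · simp only [Finset.mem_insert, Finset.mem_singleton]
        rintro r (rfl | rfl | rfl | rfl | rfl | rfl | rfl | rfl)
        · rw [rUp_iff]; simpa using hsl0.up
        · rw [rComm_iff]; simpa using hsl0.comm 1
        · rw [rPair_iff]
          simp only [FreeGroup.lift_apply_of, Matrix.cons_val_zero, Matrix.cons_val_one]
          rw [diag_pow_conj_upper, diag_pow_conj_upper, ← upper_add, mul_one, mul_one, hxy]
        · rw [rH_iff]; simpa using hsl0.hh
        · rw [rMin_iff]; simpa using hsl0.hmin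
        · rw [rT_iff]; simpa using hsl0.ht
        · rw [rA_iff]; simpa using hsl0.hA
        · rw [rB_iff]; simpa using hsl0.hB
      · have h : ∀ r ∈ ({rUp p, rComm i, rPair i k, rH pb ζ i, rMin pb i, rT, rA pb i, rB pb ζ i} :
            Finset (FreeGroup (Fin 3))), PresentedGroup.mk rels r = 1 := fun r hr => mk_eq_one (hsub hr)
        have hc := (rComm_iff (i := i) _).1 (h (rComm i) (by simp))
        have hpair := (rPair_iff (i := i) _ k).1 (h (rPair i k) (by simp))
        exact ⟨(rUp_iff (p := p) _).1 (h (rUp p) (by simp)),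
          commute_all ((Commute.refl _).pow_pow i k) hc hpair,
          (rH_iff pb (ζ := ζ) (i := i) _).1 (h (rH pb ζ i) (by simp)),
          (rMin_iff pb (i := i) _).1 (h (rMin pb i) (by simp)),
          (rT_iff _).1 (h rT (by simp)),
          (rA_iff pb (i := i) _).1 (h (rA pb i) (by simp)),
          (rB_iff pb (ζ := ζ) (i := i) _).1 (h (rB pb ζ i) (by simp))⟩

end Cfsg.Agent.SL2Pres
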