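import Cfsg.Agent.Chev.SL2

/-!
The rank-one relations from one-parameter subgroup, a torus element and a Weyl element.
-/

set_option autoImplicit false

namespace Cfsg.Agent.SL2Pres

open Cfsg.Agent.Chev

variable {F : Type*} [Field F] {G : Type*} [Group G]

/-- The opposite root subgroup. -/
def yOf (x : F → G) (t : G) (c : F) : G := t * x (-c) * t⁻¹

theorem rankOne_of_relations (x : F → G) (h t : G) (ζ : F) (hζ0 : ζ ≠ 0)
    (hgen : ∀ a : F, a ≠ 0 → ∃ m : ℕ, a = ζ ^ m)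
    (hadd : ∀ a b, x (a + b) = x a * x b)
    (hh : ∀ c, h * x c * h⁻¹ = x (ζ ^ 2 * c))
    (ht : t * h * t⁻¹ = h⁻¹)
    (hA : RankOne.w x (yOf x t) 1 = t)
    (hB : RankOne.w x (yOf x t) ζ = h * t) :
    RankOne F x (yOf x t) ∧ ∀ m : ℕ, RankOne.w x (yOf x t) (ζ ^ m) = h ^ m * t := by
  have hx0 : x 0 = 1 := by
    have h0 := hadd 0 0
    rw [add_zero] at h0
    exact mul_eq_left.1 h0.symm
  have hxneg : ∀ c, x (-c) = (x c)⁻¹ := fun c =>
    eq_inv_of_mul_eq_one_left (by rw [← hadd, neg_add_cancel, hx0])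
  have hth : t * h⁻¹ * t⁻¹ = h := by
    calc t * h⁻¹ * t⁻¹ = (t * h * t⁻¹)⁻¹ := by group
      _ = h := by rw [ht, inv_inv]
  have hhy : ∀ c, h * yOf x t c * h⁻¹ = yOf x t ((ζ ^ 2)⁻¹ * c) := by
    intro c
    have e1 : h * x ((ζ ^ 2)⁻¹ * -c) * h⁻¹ = x (-c) := by
      rw [hh, mul_inv_cancel_left₀ (pow_ne_zero 2 hζ0)]
    have e2 : h⁻¹ * x (-c) * h = x ((ζ ^ 2)⁻¹ * -c) := by rw [← e1]; group
    calc h * yOf x t c * h⁻¹ = (t * h⁻¹ * t⁻¹) * (t * x (-c) * t⁻¹) * (t * h⁻¹ * t⁻¹)⁻¹ := by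
          rw [hth]; rfl
      _ = t * (h⁻¹ * x (-c) * h) * t⁻¹ := by group
      _ = _ := by rw [e2, yOf, mul_neg]
  have hhw : ∀ s : F, h * RankOne.w x (yOf x t) s * h⁻¹ = RankOne.w x (yOf x t) (ζ ^ 2 * s) := by
    intro s
    rw [RankOne.w, RankOne.w,
      show -(ζ ^ 2 * s)⁻¹ = (ζ ^ 2)⁻¹ * -s⁻¹ by rw [mul_inv, mul_neg], ← hhy, ← hh]
    group
  have hw : ∀ m : ℕ, RankOne.w x (yOf x t) (ζ ^ m) = h ^ m * t := by
    intro m
    induction m using Nat.strong_induction_on with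
    | _ m ih =>
      rcases m with _ | _ | m
      · rw [pow_zero, pow_zero, one_mul, hA]
      · rw [pow_one, pow_one, hB]
      · rw [show ζ ^ (m + 1 + 1) = ζ ^ 2 * ζ ^ m by ring, ← hhw, ih m (by omega)]
        calc h * (h ^ m * t) * h⁻¹ = h * h ^ m * (t * h⁻¹ * t⁻¹) * t := by group
          _ = h ^ (m + 1 + 1) * t := by rw [hth, pow_succ, pow_succ]; group
  have hwneg : ∀ s : F, RankOne.w x (yOf x t) (-s) = (RankOne.w x (yOf x t) s)⁻¹ := by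
    intro s
    simp only [RankOne.w, yOf, inv_neg, neg_neg, hxneg, mul_inv_rev, inv_inv, mul_assoc]
  have hH : ∀ m : ℕ, RankOne.w x (yOf x t) (ζ ^ m) * RankOne.w x (yOf x t) (-1) = h ^ m := by
    intro m
    rw [hw, hwneg, hA, mul_inv_cancel_right]
  have hpow : ∀ (m : ℕ) (c : F), h ^ m * x c * (h ^ m)⁻¹ = x ((ζ ^ m) ^ 2 * c) := by
    intro m
    induction m with
    | zero => simp
    | succ m ih =>
      intro c
      rw [show (ζ ^ (m + 1)) ^ 2 * c = (ζ ^ m) ^ 2 * (ζ ^ 2 * c) by ring, ← ih, ← hh, pow_succ]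
      group
  have hconjy : ∀ (m : ℕ) (c : F), h ^ m * yOf x t c * (h ^ m)⁻¹ = yOf x t (((ζ ^ m) ^ 2)⁻¹ * c) := by
    intro m
    induction m with
    | zero => simp
    | succ m ih =>
      intro c
      rw [show ((ζ ^ (m + 1)) ^ 2)⁻¹ * c = ((ζ ^ m) ^ 2)⁻¹ * ((ζ ^ 2)⁻¹ * c) by
        rw [← mul_assoc, ← mul_inv]; ring_nf, ← ih, ← hhy, pow_succ]
      group
  refine ⟨⟨fun a b => (hadd a b).symm, fun a b => ?_, fun a ha u => ?_, fun a b ha hb => ?_,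
    fun a ha u => ?_⟩, hw⟩
  · simp only [yOf]
    rw [neg_add, hadd]
    group
  · obtain ⟨m, rfl⟩ := hgen a ha
    change RankOne.w x (yOf x t) (ζ ^ m) * x u = _ * RankOne.w x (yOf x t) (ζ ^ m)
    rw [hw, div_eq_inv_mul, ← mul_neg, ← hconjy, yOf, neg_neg]
    group
  · obtain ⟨m, rfl⟩ := hgen a ha
    obtain ⟨n, rfl⟩ := hgen b hb
    have e : ∀ c : F, x c * yOf x t (-c⁻¹) * x c = RankOne.w x (yOf x t) c := fun _ => rfl
    have e1 : x (-1) * yOf x t 1 * x (-1) = RankOne.w x (yOf x t) (-1) := by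
      rw [RankOne.w, inv_neg, inv_one, neg_neg]
    rw [e1, e, e, e, ← pow_add, hH, hH, hH, pow_add]
  · obtain ⟨m, rfl⟩ := hgen a ha
    have e1 : x (-1) * yOf x t 1 * x (-1) = RankOne.w x (yOf x t) (-1) := by
      rw [RankOne.w, inv_neg, inv_one, neg_neg]
    have e : x (ζ ^ m) * yOf x t (-(ζ ^ m)⁻¹) * x (ζ ^ m) = RankOne.w x (yOf x t) (ζ ^ m) := rfl
    rw [e1, e, hH, ← hpow]
    group

end Cfsg.Agent.SL2Pres
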