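import Cfsg.Agent.SL2Pres.Core
import Cfsg.Agent.SL2Pres.RankOne

/-!
Short relation sets for `SL₂` and the maps in both directions.
-/

set_option autoImplicit false

namespace Cfsg.Agent.SL2Pres

open Matrix Cfsg.Agent.Chev

variable {p : ℕ} [hp : Fact p.Prime] {F : Type*} [Field F] [Algebra (ZMod p) F]
variable (pb : PowerBasis (ZMod p) F) (ζ : F) (i : ℕ)

section words
variable {G : Type*} [Group G] (u h t : G)

/-- The word for `x(c)`. -/
noncomputable def X (c : F) : G := xw pb (h ^ i) u c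

/-- The word for `w(c)`. -/
noncomputable def W (c : F) : G := RankOne.w (X pb i u h) (yOf (X pb i u h) t) c

/-- Left side of the relation for the minimal polynomial. -/
def minL : G := h ^ i * ((h ^ i) ^ (pb.dim - 1) * u * ((h ^ i) ^ (pb.dim - 1))⁻¹) * (h ^ i)⁻¹

variable {H : Type*} [Group H] (φ : G →* H)

theorem map_X (c : F) : φ (X pb i u h c) = X pb i (φ u) (φ h) c := by rw [X, X, map_xw, map_pow]

theorem map_W (c : F) : φ (W pb i u h t c) = W pb i (φ u) (φ h) (φ t) c := by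
  simp only [W, RankOne.w, yOf, map_mul, map_inv, map_X]

theorem map_minL : φ (minL pb i u h) = minL pb i (φ u) (φ h) := by
  simp only [minL, map_mul, map_inv, map_pow]

/-- The relations implying all others. -/
structure Holds : Prop where
  up : u ^ p = 1
  comm : ∀ n : ℕ, Commute u ((h ^ i) ^ n * u * ((h ^ i) ^ n)⁻¹)
  hh : h * u * h⁻¹ = X pb i u h (ζ ^ 2)
  hmin : minL pb i u h = X pb i u h (pb.gen ^ pb.dim)
  ht : t * h * t⁻¹ = h⁻¹
  hA : W pb i u h t 1 = t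
  hB : W pb i u h t ζ = h * t

end words

variable {ζ i}

/-- Diagonal matrix. -/
def diag (z : F) (hz : z ≠ 0) : SpecialLinearGroup (Fin 2) F :=
  ⟨!![z, 0; 0, z⁻¹], by simp [Matrix.det_fin_two, hz]⟩

theorem upper_add (a b : F) : RankOne.upper (a + b) = RankOne.upper a * RankOne.upper b := by
  apply Subtype.ext
  rw [RankOne.sl_mul_val]
  ext r s
  fin_cases r <;> fin_cases s <;> simp [RankOne.upper, Matrix.mul_apply, Fin.sum_univ_two, add_comm]

theorem upper_zero : (RankOne.upper 0 : SpecialLinearGroup (Fin 2) F) = 1 := by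
  apply Subtype.ext
  ext r s
  fin_cases r <;> fin_cases s <;> simp [RankOne.upper]

theorem diag_conj_upper (z : F) (hz : z ≠ 0) (c : F) :
    diag z hz * RankOne.upper c * (diag z hz)⁻¹ = RankOne.upper (z ^ 2 * c) := by
  rw [mul_inv_eq_iff_eq_mul]
  apply Subtype.ext
  simp only [RankOne.sl_mul_val]
  ext r s
  fin_cases r <;> fin_cases s <;>
    simp [diag, RankOne.upper, Matrix.mul_apply, Fin.sum_univ_two] <;> field_simp

theorem diag_pow_conj_upper (z : F) (hz : z ≠ 0) (n : ℕ) (c : F) :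
    (diag z hz) ^ n * RankOne.upper c * ((diag z hz) ^ n)⁻¹ = RankOne.upper ((z ^ 2) ^ n * c) := by
  induction n generalizing c with
  | zero => simp
  | succ n ih =>
    rw [pow_succ (z ^ 2), mul_assoc ((z ^ 2) ^ n), ← ih, ← diag_conj_upper z hz, pow_succ]
    group

theorem upper_natMul (n : ℕ) (c : F) : RankOne.upper ((n : F) * c) = RankOne.upper c ^ n := by
  induction n with
  | zero => simp [upper_zero]
  | succ n ih => rw [Nat.cast_succ, add_mul, one_mul, upper_add, ih, pow_succ]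

theorem upper_sum (n : ℕ) (f : Fin n → F) :
    (List.ofFn fun j => RankOne.upper (f j)).prod = RankOne.upper (∑ j, f j) := by
  induction n with
  | zero => simp [upper_zero]
  | succ n ih => rw [List.ofFn_succ, List.prod_cons, ih, Fin.sum_univ_succ, upper_add]

theorem X_sl (hζ0 : ζ ≠ 0) (hi : pb.gen = (ζ ^ 2) ^ i) (c : F) :
    X pb i (RankOne.upper 1) (diag ζ hζ0) c = RankOne.upper c := by
  conv_rhs => rw [← sum_coef pb c]
  rw [X, xw, ← upper_sum]
  congr 2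
  funext j
  rw [← pow_mul, diag_pow_conj_upper, mul_one, upper_natMul, hi, ← pow_mul]
  congr 2
  ring

theorem W_sl (hζ0 : ζ ≠ 0) (hi : pb.gen = (ζ ^ 2) ^ i) {c : F} (hc : c ≠ 0) :
    W pb i (RankOne.upper 1) (diag ζ hζ0) RankOne.weyl c = diag c hc * RankOne.weyl := by
  simp only [W, RankOne.w, yOf, X_sl pb hζ0 hi, neg_neg]
  have h1 : RankOne.upper c * RankOne.weyl * RankOne.upper c⁻¹ =
      diag c hc * RankOne.weyl * RankOne.upper (-c) * RankOne.weyl := by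
    apply Subtype.ext
    simp only [RankOne.sl_mul_val]
    ext r s
    fin_cases r <;> fin_cases s <;>
      simp [diag, RankOne.upper, RankOne.weyl, Matrix.mul_apply, Fin.sum_univ_two, hc]
  have h2 : RankOne.upper (-c) * RankOne.upper c = (1 : SpecialLinearGroup (Fin 2) F) := by
    rw [← upper_add, neg_add_cancel, upper_zero]
  calc RankOne.upper c * (RankOne.weyl * RankOne.upper c⁻¹ * RankOne.weyl⁻¹) * RankOne.upper c
      = (RankOne.upper c * RankOne.weyl * RankOne.upper c⁻¹) * RankOne.weyl⁻¹ * RankOne.upper c := by group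
    _ = diag c hc * RankOne.weyl * (RankOne.upper (-c) * RankOne.upper c) := by rw [h1]; group
    _ = _ := by rw [h2, mul_one]

theorem diag_one : diag (1 : F) one_ne_zero = 1 := by
  apply Subtype.ext
  ext r s
  fin_cases r <;> fin_cases s <;> simp [diag]

theorem holds_sl (hζ0 : ζ ≠ 0) (hi : pb.gen = (ζ ^ 2) ^ i) :
    Holds pb ζ i (RankOne.upper 1) (diag ζ hζ0) RankOne.weyl where
  up := by rw [← upper_natMul, ← map_natCast (algebraMap (ZMod p) F), ZMod.natCast_self, map_zero, zero_mul, upper_zero]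
  comm n := by
    rw [← pow_mul, diag_pow_conj_upper, Commute, SemiconjBy, ← upper_add, ← upper_add, add_comm]
  hh := by rw [diag_conj_upper, mul_one, X_sl pb hζ0 hi]
  hmin := by
    rw [minL, ← pow_mul, diag_pow_conj_upper, diag_pow_conj_upper, mul_one, X_sl pb hζ0 hi, hi]
    congr 1
    obtain ⟨d, hd⟩ : ∃ d, pb.dim = d + 1 := ⟨pb.dim - 1, by have := pb.dim_pos; omega⟩
    rw [hd, Nat.add_sub_cancel]
    ring
  ht := by
    rw [mul_inv_eq_iff_eq_mul, eq_inv_mul_iff_mul_eq]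
    apply Subtype.ext
    simp only [RankOne.sl_mul_val]
    ext r s
    fin_cases r <;> fin_cases s <;>
      simp [diag, RankOne.weyl, Matrix.mul_apply, Fin.sum_univ_two, hζ0]
  hA := by rw [W_sl pb hζ0 hi one_ne_zero, diag_one, one_mul]
  hB := W_sl pb hζ0 hi hζ0

theorem exists_hom {G : Type*} [Group G] {u h t : G} (hH : Holds pb ζ i u h t) (hζ0 : ζ ≠ 0)
    (hgen : ∀ a : F, a ≠ 0 → ∃ m : ℕ, a = ζ ^ m) :
    ∃ ψ : SpecialLinearGroup (Fin 2) F →* G,
      ψ (RankOne.upper 1) = u ∧ ψ (diag ζ hζ0) = h ∧ ψ RankOne.weyl = t := by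
  obtain ⟨hadd, -, -⟩ := xw_props pb hH.up hH.comm
  have hx : ∀ c, h * X pb i u h c * h⁻¹ = X pb i u h (ζ ^ 2 * c) := fun c =>
    conj_xw_h pb hH.up hH.comm ((Commute.refl h).pow_left i) hH.hh hH.hmin c
  obtain ⟨R, hw⟩ := rankOne_of_relations (X pb i u h) h t ζ hζ0 hgen hadd hx hH.ht hH.hA hH.hB
  refine ⟨R.hom, (R.val_upper 1).trans (xw_one pb hH.up hH.comm), ?_, R.val_weyl.trans hH.hA⟩
  show RankOne.val _ _ (diag ζ hζ0).1 = h
  have hw1 : RankOne.w (X pb i u h) (yOf (X pb i u h) t) (-1) = t⁻¹ := by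
    rw [R.w_neg, show RankOne.w (X pb i u h) (yOf (X pb i u h) t) 1 = t from hH.hA]
  simp only [RankOne.val, diag, Matrix.of_apply, Matrix.cons_val', Matrix.cons_val_zero,
    Matrix.cons_val_one, Matrix.empty_val', Matrix.cons_val_fin_one, RankOne.valE_zero rfl, zero_div,
    R.x_zero, mul_one, RankOne.h]
  rw [show RankOne.w (X pb i u h) (yOf (X pb i u h) t) ζ = h * t from hH.hB, hw1, mul_inv_cancel_right]

theorem mem_of_generators (hζ0 : ζ ≠ 0) (hi : pb.gen = (ζ ^ 2) ^ i)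
    (S : Subgroup (SpecialLinearGroup (Fin 2) F)) (h0 : RankOne.upper 1 ∈ S) (h1 : diag ζ hζ0 ∈ S)
    (h2 : RankOne.weyl ∈ S) : S = ⊤ := by
  refine eq_top_iff.2 fun g _ => RankOne.mem_of_upper_weyl (S := S.toSubmonoid) (fun c => ?_) h2 g
  have e := map_X pb i (⟨_, h0⟩ : S) ⟨_, h1⟩ S.subtype c
  rw [← X_sl pb hζ0 hi c]
  exact e ▸ SetLike.coe_mem _

/-- Recognition of a presented group. -/
theorem presented_equiv (hζ0 : ζ ≠ 0) (hi : pb.gen = (ζ ^ 2) ^ i)
    (hgen : ∀ a : F, a ≠ 0 → ∃ m : ℕ, a = ζ ^ m) (rels : Set (FreeGroup (Fin 3)))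
    {Q : Type*} [Group Q] (q : SpecialLinearGroup (Fin 2) F →* Q) (hq : Function.Surjective q)
    (hrel : ∀ r ∈ rels, FreeGroup.lift ![q (RankOne.upper 1), q (diag ζ hζ0), q RankOne.weyl] r = 1)
    (hH : Holds pb ζ i (PresentedGroup.of 0 : PresentedGroup rels) (PresentedGroup.of 1) (PresentedGroup.of 2))
    (hker : ∀ ψ : SpecialLinearGroup (Fin 2) F →* PresentedGroup rels,
      ψ (diag ζ hζ0) = PresentedGroup.of 1 → q.ker ≤ ψ.ker) :
    Nonempty (PresentedGroup rels ≃* Q) := by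
  obtain ⟨ψ, h0, h1, h2⟩ := exists_hom pb hH hζ0 hgen
  let π : PresentedGroup rels →* Q := PresentedGroup.toGroup hrel
  have htop : MonoidHom.eqLocus (π.comp ψ) q = ⊤ := by
    refine mem_of_generators pb hζ0 hi _ ?_ ?_ ?_
    · show π (ψ _) = q _
      rw [h0, PresentedGroup.toGroup.of]
      rfl
    · show π (ψ _) = q _
      rw [h1, PresentedGroup.toGroup.of]
      rfl
    · show π (ψ _) = q _
      rw [h2, PresentedGroup.toGroup.of]
      rfl
  have hπψ : ∀ g, π (ψ g) = q g := fun g => (htop.symm ▸ Subgroup.mem_top g : g ∈ MonoidHom.eqLocus (π.comp ψ) q)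
  have hsurjψ : Function.Surjective ψ := by
    rw [← MonoidHom.range_eq_top, eq_top_iff, ← PresentedGroup.closure_range_of, Subgroup.closure_le]
    rintro _ ⟨j, rfl⟩
    fin_cases j
    · exact ⟨_, h0⟩
    · exact ⟨_, h1⟩
    · exact ⟨_, h2⟩
  refine ⟨MulEquiv.ofBijective π ⟨?_, fun y => ?_⟩⟩
  · rw [← MonoidHom.ker_eq_bot_iff, Subgroup.eq_bot_iff_forall]
    intro z hz
    obtain ⟨g, rfl⟩ := hsurjψ z
    exact hker ψ h1 ((hπψ g).symm.trans hz)
  · obtain ⟨g, rfl⟩ := hq y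
    exact ⟨ψ g, hπψ g⟩

/-! ### The relators -/

/-- `u^p`. -/
def rUp (p : ℕ) : FreeGroup (Fin 3) := FreeGroup.of 0 ^ p

/-- The relator for the minimal polynomial. -/
noncomputable def rMin (i : ℕ) : FreeGroup (Fin 3) :=
  minL pb i (FreeGroup.of 0) (FreeGroup.of 1) * (X pb i (FreeGroup.of 0) (FreeGroup.of 1) (pb.gen ^ pb.dim))⁻¹

/-- The relator `w(1) = t`. -/
noncomputable def rA (i : ℕ) : FreeGroup (Fin 3) :=
  W pb i (FreeGroup.of 0) (FreeGroup.of 1) (FreeGroup.of 2) 1 * (FreeGroup.of 2)⁻¹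

/-- The relator `w(ζ) = h t`. -/
noncomputable def rB (ζ : F) (i : ℕ) : FreeGroup (Fin 3) :=
  W pb i (FreeGroup.of 0) (FreeGroup.of 1) (FreeGroup.of 2) ζ * (FreeGroup.of 1 * FreeGroup.of 2)⁻¹

/-- The relator `[u, u^a]`. -/
def rComm (i : ℕ) : FreeGroup (Fin 3) :=
  (FreeGroup.of 0 * (FreeGroup.of 1 ^ i * FreeGroup.of 0 * (FreeGroup.of 1 ^ i)⁻¹)) *
    ((FreeGroup.of 1 ^ i * FreeGroup.of 0 * (FreeGroup.of 1 ^ i)⁻¹) * FreeGroup.of 0)⁻¹

/-- The relator `u^b = u u^a`. -/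
def rPair (i k : ℕ) : FreeGroup (Fin 3) :=
  (FreeGroup.of 1 ^ k * FreeGroup.of 0 * (FreeGroup.of 1 ^ k)⁻¹) *
    (FreeGroup.of 0 * (FreeGroup.of 1 ^ i * FreeGroup.of 0 * (FreeGroup.of 1 ^ i)⁻¹))⁻¹

/-- The relator `u^h = x(ζ²)`. -/
noncomputable def rH (ζ : F) (i : ℕ) : FreeGroup (Fin 3) :=
  FreeGroup.of 1 * FreeGroup.of 0 * (FreeGroup.of 1)⁻¹ * (X pb i (FreeGroup.of 0) (FreeGroup.of 1) (ζ ^ 2))⁻¹

/-- The relator `h^t = h⁻¹`. -/
def rT : FreeGroup (Fin 3) :=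
  FreeGroup.of 2 * FreeGroup.of 1 * (FreeGroup.of 2)⁻¹ * FreeGroup.of 1

variable {G : Type*} [Group G] (φ : FreeGroup (Fin 3) →* G)

theorem rUp_iff : φ (rUp p) = 1 ↔ φ (.of 0) ^ p = 1 := by rw [rUp, map_pow]

theorem rMin_iff : φ (rMin pb i) = 1 ↔
    minL pb i (φ (.of 0)) (φ (.of 1)) = X pb i (φ (.of 0)) (φ (.of 1)) (pb.gen ^ pb.dim) := by
  rw [rMin, map_mul, map_inv, mul_inv_eq_one, map_minL, map_X]

theorem rA_iff : φ (rA pb i) = 1 ↔ W pb i (φ (.of 0)) (φ (.of 1)) (φ (.of 2)) 1 = φ (.of 2) := by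
  rw [rA, map_mul, map_inv, mul_inv_eq_one, map_W]

theorem rB_iff : φ (rB pb ζ i) = 1 ↔
    W pb i (φ (.of 0)) (φ (.of 1)) (φ (.of 2)) ζ = φ (.of 1) * φ (.of 2) := by
  rw [rB, map_mul, map_inv, mul_inv_eq_one, map_W, map_mul]

theorem rComm_iff : φ (rComm i) = 1 ↔
    Commute (φ (.of 0)) (φ (.of 1) ^ i * φ (.of 0) * (φ (.of 1) ^ i)⁻¹) := by
  rw [rComm, map_mul, map_inv, mul_inv_eq_one]
  simp only [map_mul, map_inv, map_pow]
  rfl

theorem rPair_iff (k : ℕ) : φ (rPair i k) = 1 ↔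
    φ (.of 1) ^ k * φ (.of 0) * (φ (.of 1) ^ k)⁻¹ =
      φ (.of 0) * (φ (.of 1) ^ i * φ (.of 0) * (φ (.of 1) ^ i)⁻¹) := by
  rw [rPair, map_mul, map_inv, mul_inv_eq_one]
  simp only [map_mul, map_inv, map_pow]

theorem rH_iff : φ (rH pb ζ i) = 1 ↔
    φ (.of 1) * φ (.of 0) * (φ (.of 1))⁻¹ = X pb i (φ (.of 0)) (φ (.of 1)) (ζ ^ 2) := by
  rw [rH, map_mul, map_inv, mul_inv_eq_one, map_X]
  simp only [map_mul, map_inv]

theorem rT_iff : φ rT = 1 ↔ φ (.of 2) * φ (.of 1) * (φ (.of 2))⁻¹ = (φ (.of 1))⁻¹ := by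
  rw [rT, map_mul, mul_eq_one_iff_eq_inv]
  simp only [map_mul, map_inv]

end Cfsg.Agent.SL2Pres
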